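import Cfsg.Agent.SP.Mon.D3.Dat

/-! # S5755, the Monster, box `Rk`: elementary abelian `3`-subgroups of `3 ^ (1 + 12) . 2Suz` (helper23) -/

set_option autoImplicit false
set_option linter.style.haveILetI false

namespace Cfsg.Agent.SP.Mon.D3

open Matrix Cfsg.Agent.H920.Sz12 Cfsg.Agent.TAB.C3B
open Cfsg.Agent.H777.Th3 (V5 cj mem_cj card_cj sylow_conj)

theorem card_z3 (s : Set (ZMod 3)) : s.ncard ≤ 3 := by
  have h := Set.ncard_le_card s
  rwa [Nat.card_zmod] at h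

theorem card_z33 (s : Set (ZMod 3 × ZMod 3)) : s.ncard ≤ 9 := by
  have h := Set.ncard_le_card s
  rwa [Nat.card_prod, Nat.card_zmod] at h

theorem ncard_le_one {α : Type*} {s : Set α} {a : α} (h : ∀ x ∈ s, x = a) : s.ncard ≤ 1 := by
  rw [← Set.ncard_singleton a]
  exact Set.ncard_le_ncard h (Set.toFinite _)

theorem smul_z {c : ZMod 3} {a : V5} (hc : c ≠ 0) (h : c • a = 0) : a = 0 := by
  have h1 : ∀ c : ZMod 3, c ≠ 0 → c * c = 1 := by decide
  rw [← one_smul (ZMod 3) a, ← h1 c hc, mul_smul, h, smul_zero]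

/-- the layers of a subgroup of rows -/
theorem card_U {U : Set V12} (hU : ∀ u ∈ U, ∀ v ∈ U, v - u ∈ U) :
    U.ncard ≤ (T '' U).ncard * ((Y1 '' {u | u ∈ U ∧ T u = 0}).ncard *
      ((Y2 '' {u | u ∈ U ∧ T u = 0 ∧ Y1 u = 0}).ncard * 3)) := by
  have hi : ∀ a b c : V12, b - a = c - a → b = c := fun a b c h => sub_left_injective h
  have h1 : U.ncard ≤ (T '' U).ncard * {u | u ∈ U ∧ T u = 0}.ncard :=
    fib T (fun a b => b - a) (fun a ha => ⟨a, ha, rfl⟩)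
      (fun a ha b hb e => ⟨hU a ha b hb, by rw [T_sub, e, sub_self]⟩) hi
  have h2 : {u | u ∈ U ∧ T u = 0}.ncard ≤ (Y1 '' {u | u ∈ U ∧ T u = 0}).ncard *
      {u | u ∈ U ∧ T u = 0 ∧ Y1 u = 0}.ncard :=
    fib Y1 (fun a b => b - a) (fun a ha => ⟨a, ha, rfl⟩)
      (fun a ha b hb e => ⟨hU a ha.1 b hb.1, by rw [T_sub, ha.2, hb.2, sub_self], by rw [Y1_sub, e, sub_self]⟩) hi
  have h3 : {u | u ∈ U ∧ T u = 0 ∧ Y1 u = 0}.ncard ≤ (Y2 '' {u | u ∈ U ∧ T u = 0 ∧ Y1 u = 0}).ncard *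
      {u : V12 | T u = 0 ∧ Y1 u = 0 ∧ Y2 u = 0}.ncard :=
    fib Y2 (fun a b => b - a) (fun a ha => ⟨a, ha, rfl⟩)
      (fun a ha b hb e => ⟨by rw [T_sub, ha.2.1, hb.2.1, sub_self], by rw [Y1_sub, ha.2.2, hb.2.2, sub_self],
        by rw [Y2_sub, e, sub_self]⟩) hi
  have h4 : {u : V12 | T u = 0 ∧ Y1 u = 0 ∧ Y2 u = 0}.ncard ≤ 3 := by
    refine le_trans (Set.ncard_le_ncard_of_injOn Sc (t := Set.univ) (fun _ _ => trivial) ?_ (Set.toFinite _))
      (card_z3 _)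
    intro a ha b hb e
    rw [← sub_eq_zero]
    exact eq_zero_of (by rw [T_sub, ha.1, hb.1, sub_self]) (by rw [Y1_sub, ha.2.1, hb.2.1, sub_self])
      (by rw [Y2_sub, ha.2.2, hb.2.2, sub_self]) (sub_eq_zero.2 e)
  exact h1.trans (Nat.mul_le_mul_left _ (h2.trans (Nat.mul_le_mul_left _ (h3.trans (Nat.mul_le_mul_left _ h4)))))

/-- the estimate inside the Sylow subgroup -/
theorem core7 {E : Subgroup GL12} (hE : E ≤ S7) (hc : ∀ g ∈ E, ∀ g' ∈ E, g * g' = g' * g) {U : Set V12}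
    (hU : ∀ u ∈ U, ∀ v ∈ U, v - u ∈ U) (hf : ∀ u ∈ U, ∀ g ∈ E, u ᵥ* ((g : GL12) : M12) = u)
    (h3 : 3 < (E : Set GL12).ncard) : (E : Set GL12).ncard * U.ncard ≤ 3 ^ 7 := by
  have h0 : ∀ g : GL12, ∃ (a : V5) (p : ZMod 3 × ZMod 3),
      g ∈ E → g = jj a * (hh 5 ^ p.1.val * hh 6 ^ p.2.val) := fun g => by
    by_cases h : g ∈ E
    · obtain ⟨a, p, e⟩ := S7_nf (hE h)
      exact ⟨a, p, fun _ => e⟩
    · exact ⟨0, 0, fun k => absurd k h⟩
  choose al pp hn using h0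
  have hbk : ∀ g ∈ E, BK g (f1 (pp g)) (f2 (pp g)) := fun g hg => by
    have h := bk_nf (al g) (pp g)
    rwa [← hn g hg] at h
  set A : Set V5 := {a | jj a ∈ E} with hA
  set Ps : Set (ZMod 3 × ZMod 3) := pp '' E with hPs
  set Ut := T '' U with hUt
  set U1 := Y1 '' {u | u ∈ U ∧ T u = 0} with hU1
  set U2 := Y2 '' {u | u ∈ U ∧ T u = 0 ∧ Y1 u = 0} with hU2
  have hcU : U.ncard ≤ Ut.ncard * (U1.ncard * (U2.ncard * 3)) := card_U hU
  have hcE : (E : Set GL12).ncard ≤ Ps.ncard * A.ncard := by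
    rw [← Set.ncard_image_of_injective A jj_inj]
    refine fib pp (fun g g' => g' * g⁻¹) (fun a ha => ⟨a, ha, rfl⟩) (fun g hg g' hg' e => ?_)
      fun a b c h => mul_right_cancel h
    have e1 : jj (al g' - al g) = g' * g⁻¹ := by
      have e2 : jj (al g' - al g) * (jj (al g) * (hh 5 ^ (pp g).1.val * hh 6 ^ (pp g).2.val)) =
          jj (al g') * (hh 5 ^ (pp g).1.val * hh 6 ^ (pp g).2.val) := by rw [← mul_assoc, jj_add, sub_add_cancel]
      rw [← hn g hg, e, ← hn g' hg'] at e2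
      exact eq_mul_inv_iff_mul_eq.2 e2
    exact ⟨_, by rw [hA, Set.mem_setOf_eq, e1]; exact E.mul_mem hg' (E.inv_mem hg), e1⟩
  -- the relations with `A`
  have a1 : ∀ a ∈ A, ∀ t ∈ Ut, t ≠ 0 → a = 0 := by
    rintro a ha _ ⟨u, hu, rfl⟩ ht
    have h := (bj_jj a).y1 u
    rw [hf u hu _ ha, left_eq_add] at h
    exact smul_z ht h
  have a2 : ∀ a ∈ A, ∀ y ∈ U1, Ph y a = 0 := by
    rintro a ha _ ⟨u, hu, rfl⟩
    have h := (bj_jj a).y2 u hu.2
    rwa [hf u hu.1 _ ha, left_eq_add] at h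
  have a3 : ∀ y ∈ U2, ∀ a ∈ A, dot y a = 0 := by
    rintro _ ⟨u, hu, rfl⟩ a ha
    have h := (bj_jj a).s u hu.2.1 hu.2.2
    rwa [hf u hu.1 _ ha, left_eq_add] at h
  have b1 : (∀ t ∈ Ut, t = 0) ∨ A.ncard ≤ 1 := by
    by_cases h : ∀ t ∈ Ut, t = 0
    · exact Or.inl h
    · push Not at h
      obtain ⟨t, ht, h0⟩ := h
      exact Or.inr (ncard_le_one fun a ha => a1 a ha t ht h0)
  have b2 : (∀ y ∈ U1, y = 0) ∨ A.ncard ≤ 3 := by
    by_cases h : ∀ y ∈ U1, y = 0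
    · exact Or.inl h
    · push Not at h
      obtain ⟨y, hy, h0⟩ := h
      exact Or.inr (ncard_le ((ph_aux y).resolve_left h0) fun a ha => a2 a ha y hy)
  by_cases hp : ∀ p ∈ Ps, p = 0
  · have c1 : Ps.ncard ≤ 1 := ncard_le_one hp
    have c2 : (E : Set GL12).ncard ≤ A.ncard := hcE.trans (by
      calc Ps.ncard * A.ncard ≤ 1 * A.ncard := Nat.mul_le_mul_right _ c1
        _ = A.ncard := one_mul _)
    have c3 : Ut.ncard ≤ 1 := ncard_le_one (b1.resolve_right (by omega))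
    have c4 : U1.ncard ≤ 1 := ncard_le_one (b2.resolve_right (by omega))
    have c5 : U2.ncard * A.ncard ≤ 243 := orth5 a3
    calc (E : Set GL12).ncard * U.ncard ≤ A.ncard * (1 * (1 * (U2.ncard * 3))) :=
          Nat.mul_le_mul c2 (hcU.trans (Nat.mul_le_mul c3 (Nat.mul_le_mul_right _ c4)))
      _ = U2.ncard * A.ncard * 3 := by ring
      _ ≤ 243 * 3 := Nat.mul_le_mul_right _ c5
      _ ≤ 3 ^ 7 := by norm_num
  · push Not at hp
    obtain ⟨_, ⟨g, hg, rfl⟩, hp⟩ := hp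
    have c1 : A.ncard ≤ 9 := by
      refine ncard_le ((fix1_aux _).resolve_left hp) fun a ha => ?_
      have k1 := (bj_jj a).y1 e0
      rw [Y1_e0, T_e0, one_smul, zero_add] at k1
      have k2 := (hbk g hg).y1 (e0 ᵥ* ((jj a : GL12) : M12) - e0) (by rw [T_sub, (bj_jj a).t, sub_self])
      rw [Y1_sub, k1, Y1_e0, sub_zero, sub_vecMul, vecMul_vecMul, ← Units.val_mul, ← hc g hg _ ha, Units.val_mul,
        ← vecMul_vecMul, Y1_sub, (bj_jj a).y1, (hbk g hg).t, T_e0, one_smul, add_sub_cancel_left] at k2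
      exact k2.symm
    have c2 : U1.ncard ≤ 9 := by
      refine ncard_le ((fix1_aux _).resolve_left hp) ?_
      rintro _ ⟨u, hu, rfl⟩
      rw [← (hbk g hg).y1 u hu.2, hf u hu.1 g hg]
    have d2 : ∀ y ∈ U2, ∀ p ∈ Ps, f2 p y = y := by
      rintro _ ⟨u, hu, rfl⟩ _ ⟨g', hg', rfl⟩
      rw [← (hbk g' hg').y2 u hu.2.1 hu.2.2, hf u hu.1 g' hg']
    have c3 : U2.ncard ≤ 9 := ncard_le ((fix2_aux _).resolve_left hp) fun y hy => d2 y hy _ ⟨g, hg, rfl⟩
    have c4 : Ps.ncard * U2.ncard ≤ 27 := by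
      by_cases h : ∀ y ∈ U2, Ga y = y ∧ Gb y = y
      · exact (Nat.mul_le_mul (card_z33 Ps) (ncard_le fix3_aux h)).trans (by norm_num)
      · push Not at h
        obtain ⟨y, hy, h⟩ := h
        exact (Nat.mul_le_mul (ncard_le ((fix4_aux y).resolve_left fun k => h k.1 k.2) fun p hp => d2 y hy p hp)
          c3).trans (by norm_num)
    have c5 : A.ncard * (Ut.ncard * U1.ncard) ≤ 27 := by
      rcases b1 with b1 | b1
      · rcases b2 with b2 | b2
        · exact (Nat.mul_le_mul c1 (Nat.mul_le_mul (ncard_le_one b1) (ncard_le_one b2))).trans (by norm_num)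
        · exact (Nat.mul_le_mul b2 (Nat.mul_le_mul (ncard_le_one b1) c2)).trans (by norm_num)
      · exact (Nat.mul_le_mul b1 (Nat.mul_le_mul (card_z3 Ut) c2)).trans (by norm_num)
    calc (E : Set GL12).ncard * U.ncard ≤ Ps.ncard * A.ncard * (Ut.ncard * (U1.ncard * (U2.ncard * 3))) :=
          Nat.mul_le_mul hcE hcU
      _ = Ps.ncard * U2.ncard * (A.ncard * (Ut.ncard * U1.ncard)) * 3 := by ring
      _ ≤ 27 * 27 * 3 := Nat.mul_le_mul_right _ (Nat.mul_le_mul c4 c5)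
      _ ≤ 3 ^ 7 := by norm_num

theorem not_dvd_W : ¬ 3 ^ (7 + 1) ∣ 896690995200 := by norm_num

/-- the estimate in `W` -/
theorem coreW {E : Subgroup GL12} (hE : E ≤ W) (he : ∀ g ∈ E, g ^ 3 = 1) (hc : ∀ g ∈ E, ∀ g' ∈ E, g * g' = g' * g)
    {U : Set V12} (hU : ∀ u ∈ U, ∀ v ∈ U, v - u ∈ U) (hf : ∀ u ∈ U, ∀ g ∈ E, u ᵥ* ((g : GL12) : M12) = u)
    (h3 : 3 < Nat.card E) : Nat.card E * U.ncard ≤ 3 ^ 7 := by
  haveI : Fact (Nat.Prime 3) := ⟨Nat.prime_three⟩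
  have h1 : cj S7 Pg ≤ W := fun y hy => by
    have h := mem_cj.1 (S7_le (mem_cj.1 hy))
    have e : Pg⁻¹ * (Pg * y * Pg⁻¹) * Pg⁻¹⁻¹ = y := by group
    rwa [e] at h
  obtain ⟨l, -, hl⟩ := sylow_conj (p := 3) hE h1 (fun g => ⟨1, Subtype.ext (by rw [pow_one]; exact he g g.2)⟩)
    (n := 7) (by rw [card_cj, card_S7]) (by rw [card_W]; exact not_dvd_W)
  set q : GL12 := l * Pg⁻¹ with hq
  have h2 : cj E q ≤ S7 := fun y hy => by
    have h := mem_cj.1 (hl _ (mem_cj.1 hy))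
    have e : Pg * (l⁻¹ * (q * y * q⁻¹) * l) * Pg⁻¹ = y := by rw [hq]; group
    rwa [e] at h
  have h4 : Function.Injective fun u : V12 => u ᵥ* ((q : GL12) : M12) := fun u v h => by
    have h5 := congrArg (fun x => x ᵥ* ((q⁻¹ : GL12) : M12)) h
    simpa only [vecMul_cancel_inv] using h5
  have h5 : ((cj E q : Subgroup GL12) : Set GL12).ncard = Nat.card E := by
    rw [← card_cj E q, ← Nat.card_coe_set_eq]
    rfl
  have h6 := core7 h2 (fun g hg g' hg' => by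
      have h := hc _ (mem_cj.1 hg) _ (mem_cj.1 hg')
      have e : ∀ a b : GL12, q * a * q⁻¹ * (q * b * q⁻¹) = q * (a * b) * q⁻¹ := fun a b => by group
      rwa [e, e, mul_left_inj, mul_right_inj] at h)
    (U := (fun u : V12 => u ᵥ* ((q : GL12) : M12)) '' U) (by
      rintro _ ⟨u, hu, rfl⟩ _ ⟨v, hv, rfl⟩
      exact ⟨v - u, hU u hu v hv, sub_vecMul _ _ _⟩) (by
      rintro _ ⟨u, hu, rfl⟩ g hg
      have h := hf u hu _ (mem_cj.1 hg)
      have e : q * g = q * g * q⁻¹ * q := by group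
      show u ᵥ* ((q : GL12) : M12) ᵥ* ((g : GL12) : M12) = u ᵥ* ((q : GL12) : M12)
      rw [vecMul_vecMul, ← Units.val_mul, e, Units.val_mul, ← vecMul_vecMul, h]) (by rwa [h5])
  rwa [h5, Set.ncard_image_of_injective U h4] at h6

theorem fm_smul_left (c : ZMod 3) (u v : V12) : fm (c • u) v = c * fm u v := by
  rw [fm_swap, fm_smul_right, fm_swap v u, mul_neg]

theorem iso_le {U : Set V12} (h : ∀ u ∈ U, ∀ v ∈ U, fm u v = 0) : U.ncard ≤ 3 ^ 6 := by
  have h1 : U.ncard * U.ncard ≤ 3 ^ 6 * 3 ^ 6 := by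
    rw [← pow_add, ← card_rows]
    exact orth (LinearMap.mk₂ (ZMod 3) fm fm_add_left fm_smul_left fm_add_right fun c u v => fm_smul_right c u v)
      (fun v hv => eq_zero_of_fm fun u => by rw [fm_swap, show fm u v = 0 from hv u, neg_zero]) h
  exact Nat.mul_self_le_mul_self_iff.1 h1

/-- **The `3`-rank of `3 ^ (1 + 12) . 2Suz` is at most eight.** -/
theorem rank_le {D : Type*} [Group D] [Finite D] (m : TAB.C3B.Mod D) {V : Subgroup D} (he : ∀ v ∈ V, v ^ 3 = 1)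
    (hc : ∀ v ∈ V, ∀ w ∈ V, v * w = w * v) : Nat.card V ≤ 3 ^ 8 := by
  set U : Set V12 := {u | ∃ c, m.el 1 u c ∈ V} with hUd
  have k1 := m.K_one
  have hmul : ∀ u v c d, m.el 1 u c * m.el 1 v d = m.el 1 (u + v) (fm u v + (c + d)) := fun u v c d => by
    rw [TAB.C3B.Mod.el_mul k1, map_one, Units.val_one, vecMul_one, mul_one]
  have hU : ∀ u ∈ U, ∀ v ∈ U, v - u ∈ U := by
    rintro u ⟨c, hu⟩ v ⟨d, hv⟩
    have h := V.mul_mem hv (V.mul_mem hu hu)
    rw [hmul, hmul] at h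
    have e : v + (u + u) = v - u := by
      funext j
      have h4 : ∀ a b : ZMod 3, a + (b + b) = a - b := by decide
      exact h4 _ _
    rw [e] at h
    exact ⟨_, h⟩
  have hiso : ∀ u ∈ U, ∀ v ∈ U, fm u v = 0 := by
    rintro u ⟨c, hu⟩ v ⟨d, hv⟩
    have h := hc _ hu _ hv
    rw [hmul, hmul] at h
    have h2 := (TAB.C3B.Mod.el_inj k1 h).2
    rw [add_comm d c, add_left_inj, fm_swap u v, eq_neg_iff_add_eq_zero] at h2
    exact z3_two _ h2
  have hf : ∀ u ∈ U, ∀ g ∈ V.map m.R, u ᵥ* ((g : GL12) : M12) = u := by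
    rintro u ⟨c, hu⟩ _ ⟨g, hg, rfl⟩
    obtain ⟨k, w, hk, rfl⟩ := m.dec g
    have h : (m.β w)⁻¹ * (k⁻¹ * m.el 1 u c * k) * m.β w = m.el 1 u c := by
      calc _ = (k * m.β w)⁻¹ * (m.el 1 u c * (k * m.β w)) := by group
        _ = _ := by rw [hc _ hu _ hg, inv_mul_cancel_left]
    rw [TAB.C3B.Mod.conj_K hk, mul_one, inv_mul_cancel, TAB.C3B.Mod.conj_β k1, map_one, Units.val_one, vecMul_one, sub_self,
      add_zero] at h
    rw [map_mul, m.R_β, mul_one]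
    exact (TAB.C3B.Mod.el_inj k1 h).1
  have h1 : Nat.card V ≤ Nat.card (V.map m.R) * (U.ncard * 3) := by
    have h2 : (V : Set D).ncard ≤ ((V.map m.R : Subgroup GL12) : Set GL12).ncard *
        (U ×ˢ (Set.univ : Set (ZMod 3))).ncard := by
      have h3 : ∀ g : D, ∃ p : V12 × ZMod 3, m.R g = 1 → g = m.el 1 p.1 p.2 := fun g => by
        by_cases h : m.R g = 1
        · obtain ⟨v, c, e⟩ := TAB.C3B.Mod.exists_el (m := m) (g := g) k1 (by rw [h, map_one])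
          exact ⟨(v, c), fun _ => e⟩
        · exact ⟨0, fun k => absurd k h⟩
      choose p hp using h3
      have h4 : (V : Set D).ncard ≤ ((V.map m.R : Subgroup GL12) : Set GL12).ncard *
          {g : D | g ∈ V ∧ m.R g = 1}.ncard :=
        fib m.R (fun a b => a⁻¹ * b) (fun a ha => ⟨a, ha, rfl⟩)
          (fun a ha b hb e => ⟨V.mul_mem (V.inv_mem ha) hb, by rw [map_mul, map_inv, e, inv_mul_cancel]⟩)
          fun a b c h => mul_left_cancel h
      refine h4.trans (Nat.mul_le_mul_left _ (Set.ncard_le_ncard_of_injOn p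
        (fun g hg => ⟨⟨(p g).2, by rw [← hp g hg.2]; exact hg.1⟩, trivial⟩) (fun g hg g' hg' e => ?_) (Set.toFinite _)))
      rw [hp g hg.2, e, ← hp g' hg'.2]
    rwa [Set.ncard_prod, Set.ncard_univ, Nat.card_zmod, ← Nat.card_coe_set_eq, ← Nat.card_coe_set_eq] at h2
  rcases le_or_gt (Nat.card (V.map m.R)) 3 with h3 | h3
  · exact h1.trans ((Nat.mul_le_mul h3 (Nat.mul_le_mul_right _ (iso_le hiso))).trans (by norm_num))
  · have h4 := coreW (E := V.map m.R) (by rintro _ ⟨g, -, rfl⟩; exact m.R_mem g)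
      (by rintro _ ⟨g, hg, rfl⟩; rw [← map_pow, he g hg, map_one])
      (by rintro _ ⟨g, hg, rfl⟩ _ ⟨g', hg', rfl⟩; rw [← map_mul, ← map_mul, hc g hg g' hg']) hU hf h3
    rw [← mul_assoc] at h1
    exact h1.trans ((Nat.mul_le_mul_right _ h4).trans (by norm_num))

end Cfsg.Agent.SP.Mon.D3
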