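import Cfsg.Agent.SP.Mon.D3.Gen
import Cfsg.Agent.TAB.C3B.Basic

/-! # S5755, the Monster, box `Rk`: a Sylow `3`-subgroup of `2Suz` in an adapted basis (helper23) -/

set_option autoImplicit false

namespace Cfsg.Agent.SP.Mon.D3

open Matrix Cfsg.Agent.H920.Sz12 Cfsg.Agent.TAB.C3B
open Cfsg.Agent.H777.Th3 (V5 pw_add adj mem_adj le_adj self_mem_adj adj_le adj_conj card_adj cj mem_cj card_cj
  sylow_conj)

/-- the generators in the new basis -/
def hL : List (List ℕ) := [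
  [0x101, 0x20000000001000000000100, 0x100000001000000010000, 0x1000000, 0x10002000100000000, 0x201010000000000,
   0x1000000000000, 0x101000000000000, 0x10000000000000000, 0x1000000000000000000, 0x100000000000000000000,
   0x10000000000000000000000],
  [0x10001, 0x100000001000000000100, 0x20002000001000000010000, 0x20002000001000000, 0x100000100000000,
   0x20002010000000000, 0x1000000000000, 0x100000000000000, 0x10001000000000000, 0x1000000000000000000,
   0x100000000000000000000, 0x10000000000000000000000],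
  [0x1000001, 0x100, 0x20002000000010000, 0x10000000002000001000000, 0x100000000000100000000, 0x1000002010000000000,
   0x1000000000000, 0x100000000000000, 0x10000000000000000, 0x1000001000000000000, 0x100000000000000000000,
   0x10000000000000000000000],
  [0x100000001, 0x10002000000000100, 0x100000000010000, 0x100000000000001000000, 0x20001000001000100000000,
   0x200000000010000000000, 0x1000000000000, 0x100000000000000, 0x10000000000000000, 0x1000000000000000000,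
   0x100000001000000000000, 0x10000000000000000000000],
  [0x10000000001, 0x201000000000100, 0x20002000000010000, 0x1000002000001000000, 0x200000000000100000000,
   0x10000000000, 0x1000000000000, 0x100000000000000, 0x10000000000000000, 0x1000000000000000000,
   0x100000000000000000000, 0x10000000001000000000000],
  [0x2000201020101010101, 0x20201010202020202000100, 0x20200020101010202010000, 0x20202020102000102020200,
   0x10200000202000002010100, 0x201020202010000000000, 0x1000000000000, 0x201000100000000000000,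
   0x201010000000000000000, 0x202010101000000000000, 0x1010101000000000000, 0x10000020100000000000000],
  [0x10002010000010001, 0x100020102010000000100, 0x20202010101000202010000, 0x20101010002000200020000,
   0x10001000101000201010000, 0x20002010000000000, 0x1000000000000, 0x100000000000000, 0x201010000000000000000,
   0x100010001000000000000, 0x202010001000000000000, 0x10000000201000000000000]]

/-- the change of basis and its inverse -/
def pL : List (List ℕ) := [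
  [0x1000000000000, 0x20201020202010002000200, 0x20101020001000101010001, 0x10102020001020101020000,
   0x1020100000000010001, 0x10001000000010101010102, 0x10101, 0x10001000000000002010200, 0x20201000000000102020001,
   0x10202020202000101000000, 0x100020202000200020202, 0x10201020202000102000201],
  [0x2000001020202000000, 0x200010001020202000000, 0x101020002020202000000, 0x20102020000010002010100,
   0x20002000000020102020000, 0x2000202010001020100, 0x1, 0x100010101020000010101, 0x10102010101010000020201,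
   0x10202010000010002010100, 0x1020200020102020000, 0x10002000102000000000000]]

/-- the words -/
def wL : List (List ℕ) := [
  [5, 6, 1, 2, 3, 2, 1, 0, 6, 5, 1, 2, 3, 2, 1, 0, 6, 1, 0, 2, 3, 2, 1, 0, 4, 3, 2, 1, 2, 3, 2, 0, 1, 6, 4, 3, 2, 0,
   4, 3, 2, 1, 5, 1, 2, 3, 4, 1, 5, 6, 1, 2, 3, 2, 1, 0, 6, 5, 1, 2, 3, 2, 1, 0, 1, 4, 3, 2, 1, 5, 1, 2, 3, 4, 5, 1,
   2, 3, 4, 3, 2, 5, 6, 1, 5, 3, 4, 3, 5, 6, 1, 2, 3, 2, 1, 0, 6, 5, 1, 2, 3, 2, 1, 0, 3, 4, 3, 5, 1, 6, 5, 2, 3, 4,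
   3, 2, 1, 5],
  [0, 2, 3, 4, 6, 1, 0, 2, 3, 2, 1, 2, 3, 4, 0, 1, 2, 3, 2, 0, 1, 6, 4, 3, 2, 1, 5, 1, 2, 3, 4, 1, 5, 6, 1, 2, 3, 2,
   1, 0, 6, 5, 1, 2, 3, 2, 1, 0, 1, 4, 3, 2, 1, 5, 1, 2, 3, 4],
  [0, 1, 2, 3, 2, 1, 5, 6, 0, 1, 2, 3, 2, 1, 6, 5, 0, 2, 3, 4, 6, 1, 0, 2, 3, 2, 1, 2, 3, 4, 0, 1, 2, 3, 2, 0, 1, 6,
   4, 3, 2, 1, 5, 1, 2, 3, 4, 1, 0, 1, 2, 3, 2, 1, 5, 6, 0, 1, 2, 3, 2, 1, 6, 5, 1, 4, 3, 2, 1, 5, 1, 2, 3, 4],
  [5, 1, 2, 6, 0, 1, 5, 0, 1, 2, 3, 2, 1, 5, 6, 0, 1, 2, 3, 2, 1, 6, 1, 0, 6, 2, 1, 5, 2, 4, 3, 2, 1, 6, 0, 6, 1, 2,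
   3, 4, 2, 5, 6, 1, 2, 3, 2, 1, 0, 6, 5, 1, 2, 3, 2, 1, 0, 2, 4, 3, 2, 1, 6, 0, 6, 1, 2, 3, 4, 2],
  [0, 1, 2, 3, 2, 1, 5, 6, 0, 1, 2, 3, 2, 1, 6, 5],
  [0, 3, 2, 1, 3, 2, 6, 5, 1, 6, 2, 3, 2, 3, 1, 0],
  [1, 0, 1, 2, 3, 2, 1, 0, 2, 1, 6, 5, 2, 1, 6, 2, 3, 1, 0]]

/-- all the matrices -/
def tL : List (List ℕ) := [aR, bR, cR, dR, eR, fR, gR] ++ pL ++ hL

theorem good_tL : ∀ i, good (tab tL i) = true := good_tab (by decide +kernel)

theorem good_hL : ∀ i, good (tab hL i) = true := good_tab (by decide +kernel)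

theorem wm_tL {w : List ℕ} (h : ∀ i ∈ w, i < 7) : wm (tab tL) w = wm M w := by
  unfold wm
  congr 1
  refine List.map_congr_left fun i hi => ?_
  have h1 := h i hi
  interval_cases i <;> rfl

/-- the change of basis -/
def Pg : GL12 := ⟨toM (tab tL 7), toM (tab tL 8), by
    have := eqB_wm good_tL (w := [7, 8]) (w' := []) (by decide +kernel)
    rwa [wm_cons, wm_one, wm_nil] at this, by
    have := eqB_wm good_tL (w := [8, 7]) (w' := []) (by decide +kernel)
    rwa [wm_cons, wm_one, wm_nil] at this⟩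

/-- the generators -/
def hh (i : ℕ) : GL12 := Pg * wG (wL.getD i []) * Pg⁻¹

theorem wL_lt (i : ℕ) : ∀ j ∈ wL.getD i [], j < 7 := by
  rcases lt_or_ge i 7 with hi | hi
  · have h : ∀ i < 7, ∀ j ∈ wL.getD i [], j < 7 := by decide +kernel
    exact h i hi
  · rw [List.getD_eq_default _ _ (show wL.length ≤ i from hi)]
    simp

theorem chk_hh : ∀ i < 7, eqB (tab tL) 1 (7 :: (wL.getD i [] ++ [8])) [9 + i] = true := by decide +kernel

theorem coe_hh (i : ℕ) : ((hh i : GL12) : M12) = toM (tab hL i) := by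
  rcases lt_or_ge i 7 with hi | hi
  · have h1 := eqB_wm good_tL (chk_hh i hi)
    rw [wm_cons, wm_append, wm_one, wm_one, wm_tL (wL_lt i), ← mul_assoc] at h1
    have h2 : tab tL (9 + i) = tab hL i := by interval_cases i <;> rfl
    rw [← h2, ← h1, hh, Units.val_mul, Units.val_mul, coe_wG]
    rfl
  · have h2 : tab hL i = idR := List.getD_eq_default _ _ (show hL.length ≤ i from hi)
    rw [hh, List.getD_eq_default _ _ (show wL.length ≤ i from hi), h2, toM_id]
    simp [wG]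

theorem hh_mem (i : ℕ) : hh i ∈ cj W Pg⁻¹ := by
  rw [mem_cj]
  have h : Pg⁻¹ * hh i * Pg⁻¹⁻¹ = wG (wL.getD i []) := by unfold hh; group
  rw [h]
  exact wG_mem (wL_lt i)

/-- words in the generators -/
def hw (w : List ℕ) : GL12 := (w.map hh).prod

theorem coe_hw (w : List ℕ) : ((hw w : GL12) : M12) = wm (tab hL) w := by
  induction w with
  | nil => rfl
  | cons i w ih => rw [wm_cons, ← ih, ← coe_hh, ← Units.val_mul]; rfl

theorem hw_eq {w w' : List ℕ} (h : eqB (tab hL) 1 w w' = true) : hw w = hw w' :=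
  Units.ext (by rw [coe_hw, coe_hw, eqB_wm good_hL h])

theorem hw_two (i j : ℕ) : hw [i, j] = hh i * hh j := by simp [hw]

theorem hw_cons (i : ℕ) (w : List ℕ) : hw (i :: w) = hh i * hw w := rfl

theorem chk_cube : ∀ i < 7, eqB (tab hL) 1 [i, i, i] [] = true := by decide +kernel

theorem hh_cube {i : ℕ} (hi : i < 7) : hh i ^ 3 = 1 := by
  have h := hw_eq (chk_cube i hi)
  have h1 : hw [i, i, i] = hh i ^ 3 := by simp [hw, pow_succ, mul_assoc]
  rw [← h1, h]
  rfl

theorem chk_comm : ∀ i < 5, ∀ j < 5, eqB (tab hL) 1 [i, j] [j, i] = true := by decide +kernel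

theorem hh_comm {i j : ℕ} (hi : i < 5) (hj : j < 5) : Commute (hh i) (hh j) := by
  have h := hw_eq (chk_comm i hi j hj)
  rwa [hw_two, hw_two] at h

theorem hh_comm56 : hh 5 * hh 6 = hh 6 * hh 5 := by
  have h := hw_eq (w := [5, 6]) (w' := [6, 5]) (by decide +kernel)
  rwa [hw_two, hw_two] at h

/-- the normal subgroup `3 ^ 5` -/
def jj (a : V5) : GL12 :=
  hh 0 ^ a.1.val * (hh 1 ^ a.2.1.val * (hh 2 ^ a.2.2.1.val * (hh 3 ^ a.2.2.2.1.val * hh 4 ^ a.2.2.2.2.val)))

theorem step_add {G : Type*} [Group G] {x : G} (hx : x ^ 3 = 1) {r : G} (s : G) (h : Commute x r) (a b : ZMod 3) :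
    x ^ a.val * r * (x ^ b.val * s) = x ^ (a + b).val * (r * s) := by
  rw [pw_add hx, (h.symm.pow_right _).mul_mul_mul_comm]

theorem jj_add (a b : V5) : jj a * jj b = jj (a + b) := by
  have c : ∀ {i j : ℕ} (n : ℕ), i < 5 → j < 5 → Commute (hh i) (hh j ^ n) := fun n hi hj =>
    (hh_comm hi hj).pow_right n
  unfold jj
  rw [step_add (hh_cube (by norm_num)), step_add (hh_cube (by norm_num)), step_add (hh_cube (by norm_num)),
    step_add (hh_cube (by norm_num)), ← pw_add (hh_cube (by norm_num))]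
  · rfl
  · exact c _ (by norm_num) (by norm_num)
  · exact (c _ (by norm_num) (by norm_num)).mul_right (c _ (by norm_num) (by norm_num))
  · exact (c _ (by norm_num) (by norm_num)).mul_right
      ((c _ (by norm_num) (by norm_num)).mul_right (c _ (by norm_num) (by norm_num)))
  · exact (c _ (by norm_num) (by norm_num)).mul_right ((c _ (by norm_num) (by norm_num)).mul_right
      ((c _ (by norm_num) (by norm_num)).mul_right (c _ (by norm_num) (by norm_num))))

theorem jj_zero : jj 0 = 1 := by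
  have h := jj_add 0 0
  rw [add_zero] at h
  exact mul_eq_left.1 h

/-- the subgroup `3 ^ 5` -/
def JS : Subgroup GL12 where
  carrier := Set.range jj
  one_mem' := ⟨0, jj_zero⟩
  mul_mem' := by
    rintro _ _ ⟨a, rfl⟩ ⟨b, rfl⟩
    exact ⟨a + b, (jj_add a b).symm⟩
  inv_mem' := by
    rintro _ ⟨a, rfl⟩
    exact ⟨-a, by rw [eq_inv_iff_mul_eq_one, jj_add, neg_add_cancel, jj_zero]⟩

theorem JS_le {K : Subgroup GL12} (h : ∀ i < 5, hh i ∈ K) : JS ≤ K := by
  rintro _ ⟨a, rfl⟩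
  exact K.mul_mem (K.pow_mem (h 0 (by norm_num)) _) (K.mul_mem (K.pow_mem (h 1 (by norm_num)) _)
    (K.mul_mem (K.pow_mem (h 2 (by norm_num)) _) (K.mul_mem (K.pow_mem (h 3 (by norm_num)) _)
      (K.pow_mem (h 4 (by norm_num)) _))))

theorem hh_JS {i : ℕ} (hi : i < 5) : hh i ∈ JS := by
  have h1 : (1 : ZMod 3).val = 1 := rfl
  have h0 : (0 : ZMod 3).val = 0 := rfl
  interval_cases i
  · exact ⟨(1, 0, 0, 0, 0), by simp only [jj, h1, h0, pow_one, pow_zero, mul_one]⟩
  · exact ⟨(0, 1, 0, 0, 0), by simp only [jj, h1, h0, pow_one, pow_zero, mul_one, one_mul]⟩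
  · exact ⟨(0, 0, 1, 0, 0), by simp only [jj, h1, h0, pow_one, pow_zero, mul_one, one_mul]⟩
  · exact ⟨(0, 0, 0, 1, 0), by simp only [jj, h1, h0, pow_one, pow_zero, mul_one, one_mul]⟩
  · exact ⟨(0, 0, 0, 0, 1), by simp only [jj, h1, h0, pow_one, pow_zero, mul_one, one_mul]⟩

theorem hw_JS {w : List ℕ} (h : ∀ i ∈ w, i < 5) : hw w ∈ JS := by
  refine JS.list_prod_mem fun y hy => ?_
  obtain ⟨i, hi, rfl⟩ := List.mem_map.1 hy
  exact hh_JS (h i hi)

/-- the conjugates of the generators -/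
def cjL : List (List (List ℕ)) :=
  [[[0, 2, 2, 3, 3, 4, 4], [1, 2, 2, 3, 3, 4], [0, 0, 1, 1, 2, 2, 3], [0, 1, 2, 2], [4]],
   [[0, 4], [1, 2, 2, 3, 3], [1, 1, 3, 3], [1, 2, 3, 3], [4]]]

theorem chk_cjL : ∀ k < 2, ∀ i < 5, eqB (tab hL) 1 [i, 5 + k] ((5 + k) :: (cjL.getD k []).getD i []) = true ∧
    ∀ j ∈ (cjL.getD k []).getD i [], j < 5 := by decide +kernel

theorem norm_JS {k : ℕ} (hk : k < 2) : ∀ h ∈ JS, (hh (5 + k))⁻¹ * h * hh (5 + k) ∈ JS := by
  have h1 : JS ≤ cj JS (hh (5 + k))⁻¹ := JS_le fun i hi => by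
    have h2 := hw_eq (chk_cjL k hk i hi).1
    rw [hw_two, hw_cons] at h2
    rw [mem_cj, inv_inv, mul_assoc, h2, inv_mul_cancel_left]
    exact hw_JS (chk_cjL k hk i hi).2
  intro h hh'
  have h2 := mem_cj.1 (h1 hh')
  rwa [inv_inv] at h2

/-- `3 ^ 5 : 3` -/
def S6 : Subgroup GL12 := adj JS (hh 5) (norm_JS (k := 0) (by norm_num)) (by
  rw [hh_cube (by norm_num)]; exact JS.one_mem)

theorem norm_S6 : ∀ h ∈ S6, (hh 6)⁻¹ * h * hh 6 ∈ S6 :=
  adj_conj (fun x hx => le_adj (norm_JS (k := 1) (by norm_num) x hx)) (by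
    rw [mul_assoc, hh_comm56, inv_mul_cancel_left]; exact self_mem_adj)

/-- the Sylow subgroup -/
def S7 : Subgroup GL12 := adj S6 (hh 6) norm_S6 (by rw [hh_cube (by norm_num)]; exact S6.one_mem)

theorem S7_le : S7 ≤ cj W Pg⁻¹ := adj_le (adj_le (JS_le fun i _ => hh_mem i) (hh_mem 5)) (hh_mem 6)

theorem S7_nf {g : GL12} (h : g ∈ S7) :
    ∃ (a : V5) (p : ZMod 3 × ZMod 3), g = jj a * (hh 5 ^ p.1.val * hh 6 ^ p.2.val) := by
  obtain ⟨_, ⟨_, ⟨a, rfl⟩, i, rfl⟩, j, rfl⟩ := h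
  exact ⟨a, (i, j), mul_assoc _ _ _⟩

/-! ### the layers -/

/-- the top coordinate -/
def T (x : V12) : ZMod 3 := x (Sum.inl 0)

/-- the first layer -/
def Y1 (x : V12) : V5 := (x (Sum.inl 1), x (Sum.inl 2), x (Sum.inl 3), x (Sum.inl 4), x (Sum.inl 5))

/-- the second layer -/
def Y2 (x : V12) : V5 := (x (Sum.inr 1), x (Sum.inr 2), x (Sum.inr 3), x (Sum.inr 4), x (Sum.inr 5))

/-- the bottom coordinate -/
def Sc (x : V12) : ZMod 3 := x (Sum.inr 0)

theorem T_add (x y : V12) : T (x + y) = T x + T y := rfl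

theorem Y1_add (x y : V12) : Y1 (x + y) = Y1 x + Y1 y := rfl

theorem Y2_add (x y : V12) : Y2 (x + y) = Y2 x + Y2 y := rfl

theorem Sc_add (x y : V12) : Sc (x + y) = Sc x + Sc y := rfl

theorem T_sub (x y : V12) : T (x - y) = T x - T y := rfl

theorem Y1_sub (x y : V12) : Y1 (x - y) = Y1 x - Y1 y := rfl

theorem Y2_sub (x y : V12) : Y2 (x - y) = Y2 x - Y2 y := rfl

theorem left_zero {x : V12} (h0 : T x = 0) (h1 : Y1 x = 0) (k : Fin 6) : x (Sum.inl k) = 0 := by
  fin_cases k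
  · exact h0
  · exact congrArg (fun y : V5 => y.1) h1
  · exact congrArg (fun y : V5 => y.2.1) h1
  · exact congrArg (fun y : V5 => y.2.2.1) h1
  · exact congrArg (fun y : V5 => y.2.2.2.1) h1
  · exact congrArg (fun y : V5 => y.2.2.2.2) h1

theorem eq_zero_of {x : V12} (h0 : T x = 0) (h1 : Y1 x = 0) (h2 : Y2 x = 0) (h3 : Sc x = 0) : x = 0 := by
  funext i
  rcases i with k | k
  · exact left_zero h0 h1 k
  · fin_cases k
    · exact h3
    · exact congrArg (fun y : V5 => y.1) h2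
    · exact congrArg (fun y : V5 => y.2.1) h2
    · exact congrArg (fun y : V5 => y.2.2.1) h2
    · exact congrArg (fun y : V5 => y.2.2.2.1) h2
    · exact congrArg (fun y : V5 => y.2.2.2.2) h2

theorem lin_ext {β : Type*} [AddCommGroup β] [Module (ZMod 3) β] {f g : V12 → β} (hf : ∀ x y, f (x + y) = f x + f y)
    (hg : ∀ x y, g (x + y) = g x + g y) {x : V12} (h : ∀ i, x i = 0 ∨ f (Pi.single i 1) = g (Pi.single i 1)) :
    f x = g x := by
  let F : V12 →ₗ[ZMod 3] β := (AddMonoidHom.mk' f hf).toZModLinearMap 3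
  let G' : V12 →ₗ[ZMod 3] β := (AddMonoidHom.mk' g hg).toZModLinearMap 3
  have e : x = ∑ i, x i • (Pi.single i 1 : V12) := by
    funext j
    simp [Finset.sum_apply, Pi.single_apply]
  show F x = G' x
  rw [e, map_sum, map_sum]
  refine Finset.sum_congr rfl fun i _ => ?_
  rw [map_smul, map_smul]
  rcases h i with h | h
  · rw [h, zero_smul, zero_smul]
  · exact congrArg (fun t => x i • t) h

/-- the action of an element of `3 ^ 5` -/
structure BJ (g : GL12) (a : V5) : Prop where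
  t : ∀ x, T (x ᵥ* (g : M12)) = T x
  y1 : ∀ x, Y1 (x ᵥ* (g : M12)) = Y1 x + T x • a
  y2 : ∀ x, T x = 0 → Y2 (x ᵥ* (g : M12)) = Y2 x + Ph (Y1 x) a
  s : ∀ x, T x = 0 → Y1 x = 0 → Sc (x ᵥ* (g : M12)) = Sc x + dot (Y2 x) a

/-- the action on the layers -/
structure BK (g : GL12) (f f' : V5 → V5) : Prop where
  t : ∀ x, T (x ᵥ* (g : M12)) = T x
  y1 : ∀ x, T x = 0 → Y1 (x ᵥ* (g : M12)) = f (Y1 x)
  z : f 0 = 0
  y2 : ∀ x, T x = 0 → Y1 x = 0 → Y2 (x ᵥ* (g : M12)) = f' (Y2 x)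

theorem BJ.one : BJ 1 0 :=
  ⟨fun x => by rw [Units.val_one, vecMul_one], fun x => by rw [Units.val_one, vecMul_one, smul_zero, add_zero],
    fun x _ => by rw [Units.val_one, vecMul_one, Ph_zero_right, add_zero],
    fun x _ _ => by rw [Units.val_one, vecMul_one, dot_zero_right, add_zero]⟩

theorem BJ.mul {g g' : GL12} {a a' : V5} (h : BJ g a) (h' : BJ g' a') : BJ (g * g') (a + a') := by
  refine ⟨fun x => ?_, fun x => ?_, fun x h0 => ?_, fun x h0 h1 => ?_⟩ <;> rw [Units.val_mul, ← vecMul_vecMul]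
  · rw [h'.t, h.t]
  · rw [h'.y1, h.y1, h.t, smul_add, add_assoc]
  · rw [h'.y2 _ ((h.t x).trans h0), h.y2 _ h0, h.y1, h0, zero_smul, add_zero, Ph_add_right, add_assoc]
  · rw [h'.s _ ((h.t x).trans h0) (by rw [h.y1, h0, zero_smul, add_zero, h1]), h.s _ h0 h1, h.y2 _ h0, h1,
      Ph_zero_left, add_zero, dot_add_right, add_assoc]

theorem BJ.pow {g : GL12} {a : V5} (h : BJ g a) (n : ℕ) : BJ (g ^ n) (n • a) := by
  induction n with
  | zero => rw [pow_zero, zero_smul]; exact BJ.one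
  | succ n ih => rw [pow_succ, succ_nsmul]; exact ih.mul h

theorem BJ.bk {g : GL12} {a : V5} (h : BJ g a) : BK g id id :=
  ⟨h.t, fun x h0 => by rw [h.y1, h0, zero_smul, add_zero]; rfl, rfl,
    fun x h0 h1 => by rw [h.y2 _ h0, h1, Ph_zero_left, add_zero]; rfl⟩

theorem BK.mul {g g' : GL12} {f f' k k' : V5 → V5} (h : BK g f f') (h' : BK g' k k') :
    BK (g * g') (k ∘ f) (k' ∘ f') := by
  refine ⟨fun x => ?_, fun x h0 => ?_, by rw [Function.comp_apply, h.z, h'.z], fun x h0 h1 => ?_⟩ <;>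
    rw [Units.val_mul, ← vecMul_vecMul]
  · rw [h'.t, h.t]
  · rw [h'.y1 _ ((h.t x).trans h0), h.y1 _ h0]; rfl
  · rw [h'.y2 _ ((h.t x).trans h0) (by rw [h.y1 _ h0, h1, h.z]), h.y2 _ h0 h1]; rfl

theorem BK.pow {g : GL12} {f f' : V5 → V5} (h : BK g f f') (n : ℕ) : BK (g ^ n) f^[n] f'^[n] := by
  induction n with
  | zero => rw [pow_zero]; exact BJ.one.bk
  | succ n ih => rw [pow_succ, Function.iterate_succ', Function.iterate_succ']; exact ih.mul h

theorem row_hh (k : ℕ) (i : I12) : (Pi.single i 1 : V12) ᵥ* ((hh k : GL12) : M12) = toM (tab hL k) i := by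
  rw [coe_hh, single_one_vecMul]
  rfl

theorem BJ_of {k : ℕ} {a : V5} (h : ∀ i : I12, T (toM (tab hL k) i) = T (Pi.single i 1) ∧
    Y1 (toM (tab hL k) i) = Y1 (Pi.single i 1) + T (Pi.single i 1) • a ∧
    (i = Sum.inl 0 ∨ Y2 (toM (tab hL k) i) = Y2 (Pi.single i 1) + Ph (Y1 (Pi.single i 1)) a) ∧
    (i.isLeft = true ∨ Sc (toM (tab hL k) i) = Sc (Pi.single i 1) + dot (Y2 (Pi.single i 1)) a)) : BJ (hh k) a := by
  refine ⟨fun x => ?_, fun x => ?_, fun x h0 => ?_, fun x h0 h1 => ?_⟩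
  · exact lin_ext (f := fun x => T (x ᵥ* ((hh k : GL12) : M12))) (g := T) (fun x y => by rw [add_vecMul, T_add]) T_add
      fun i => Or.inr (by rw [row_hh]; exact (h i).1)
  · exact lin_ext (f := fun x => Y1 (x ᵥ* ((hh k : GL12) : M12))) (g := fun x => Y1 x + T x • a)
      (fun x y => by rw [add_vecMul, Y1_add]) (fun x y => by rw [Y1_add, T_add, add_smul]; abel)
      fun i => Or.inr (by rw [row_hh]; exact (h i).2.1)
  · exact lin_ext (f := fun x => Y2 (x ᵥ* ((hh k : GL12) : M12))) (g := fun x => Y2 x + Ph (Y1 x) a)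
      (fun x y => by rw [add_vecMul, Y2_add]) (fun x y => by rw [Y1_add, Y2_add, Ph_add_left]; abel)
      fun i => (h i).2.2.1.imp (fun e => by rw [e]; exact h0) fun e => by rw [row_hh]; exact e
  · exact lin_ext (f := fun x => Sc (x ᵥ* ((hh k : GL12) : M12))) (g := fun x => Sc x + dot (Y2 x) a)
      (fun x y => by rw [add_vecMul, Sc_add]) (fun x y => by rw [Y2_add, Sc_add, dot_add_left]; abel)
      fun i => (h i).2.2.2.imp (fun e => by
        obtain ⟨k, rfl⟩ := Sum.isLeft_iff.1 e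
        exact left_zero h0 h1 k) fun e => by rw [row_hh]; exact e

theorem BK_of {k : ℕ} {f f' : V5 → V5} (hf : ∀ x y, f (x + y) = f x + f y) (hf' : ∀ x y, f' (x + y) = f' x + f' y)
    (h : ∀ i : I12, T (toM (tab hL k) i) = T (Pi.single i 1) ∧
    (i = Sum.inl 0 ∨ Y1 (toM (tab hL k) i) = f (Y1 (Pi.single i 1))) ∧
    (i.isLeft = true ∨ Y2 (toM (tab hL k) i) = f' (Y2 (Pi.single i 1)))) : BK (hh k) f f' := by
  refine ⟨fun x => ?_, fun x h0 => ?_, ?_, fun x h0 h1 => ?_⟩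
  · exact lin_ext (f := fun x => T (x ᵥ* ((hh k : GL12) : M12))) (g := T) (fun x y => by rw [add_vecMul, T_add]) T_add
      fun i => Or.inr (by rw [row_hh]; exact (h i).1)
  · exact lin_ext (f := fun x => Y1 (x ᵥ* ((hh k : GL12) : M12))) (g := fun x => f (Y1 x))
      (fun x y => by rw [add_vecMul, Y1_add]) (fun x y => by rw [Y1_add, hf])
      fun i => (h i).2.1.imp (fun e => by rw [e]; exact h0) fun e => by rw [row_hh]; exact e
  · have h1 := hf 0 0
    rw [add_zero] at h1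
    exact left_eq_add.1 h1
  · exact lin_ext (f := fun x => Y2 (x ᵥ* ((hh k : GL12) : M12))) (g := fun x => f' (Y2 x))
      (fun x y => by rw [add_vecMul, Y2_add]) (fun x y => by rw [Y2_add, hf'])
      fun i => (h i).2.2.imp (fun e => by
        obtain ⟨k, rfl⟩ := Sum.isLeft_iff.1 e
        exact left_zero h0 h1 k) fun e => by rw [row_hh]; exact e

theorem bj0 : BJ (hh 0) (1, 0, 0, 0, 0) := BJ_of (by decide +kernel)

theorem bj1 : BJ (hh 1) (0, 1, 0, 0, 0) := BJ_of (by decide +kernel)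

theorem bj2 : BJ (hh 2) (0, 0, 1, 0, 0) := BJ_of (by decide +kernel)

theorem bj3 : BJ (hh 3) (0, 0, 0, 1, 0) := BJ_of (by decide +kernel)

theorem bj4 : BJ (hh 4) (0, 0, 0, 0, 1) := BJ_of (by decide +kernel)

theorem bk5 : BK (hh 5) Fa Ga := BK_of Fa_add Ga_add (by decide +kernel)

theorem bk6 : BK (hh 6) Fb Gb := BK_of Fb_add Gb_add (by decide +kernel)

theorem v5_eq : ∀ a : V5, a.1.val • ((1, 0, 0, 0, 0) : V5) + (a.2.1.val • ((0, 1, 0, 0, 0) : V5) +
    (a.2.2.1.val • ((0, 0, 1, 0, 0) : V5) + (a.2.2.2.1.val • ((0, 0, 0, 1, 0) : V5) +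
      a.2.2.2.2.val • ((0, 0, 0, 0, 1) : V5)))) = a := by decide +kernel

theorem bj_jj (a : V5) : BJ (jj a) a := by
  have h := (bj0.pow a.1.val).mul ((bj1.pow a.2.1.val).mul ((bj2.pow a.2.2.1.val).mul ((bj3.pow a.2.2.2.1.val).mul
    (bj4.pow a.2.2.2.2.val))))
  rwa [v5_eq] at h

theorem bk_nf (a : V5) (p : ZMod 3 × ZMod 3) : BK (jj a * (hh 5 ^ p.1.val * hh 6 ^ p.2.val)) (f1 p) (f2 p) :=
  (bj_jj a).bk.mul ((bk5.pow p.1.val).mul (bk6.pow p.2.val))

/-- the top basis vector -/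
def e0 : V12 := Pi.single (Sum.inl 0) 1

/-- the second basis vector -/
def e1 : V12 := Pi.single (Sum.inl 1) 1

theorem T_e0 : T e0 = 1 := by decide +kernel

theorem Y1_e0 : Y1 e0 = 0 := by decide +kernel

theorem T_e1 : T e1 = 0 := by decide +kernel

theorem Y1_e1 : Y1 e1 = (1, 0, 0, 0, 0) := by decide +kernel

theorem jj_inj : Function.Injective jj := fun a b h => by
  have h1 := (bj_jj a).y1 e0
  rw [h, (bj_jj b).y1, T_e0, one_smul, one_smul] at h1
  exact (add_left_cancel h1).symm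

theorem card_JS : Nat.card JS = 243 := by
  rw [← card_V5]
  exact (Nat.card_congr (Equiv.ofInjective jj jj_inj)).symm

theorem card_S6 : Nat.card S6 = 729 := by
  refine (card_adj ?_).trans (by rw [card_JS])
  rintro ⟨a, ha⟩
  have h1 := (bj_jj a).bk.y1 e1 T_e1
  rw [ha, bk5.y1 e1 T_e1, Y1_e1] at h1
  exact Fa_ne h1

theorem card_S7 : Nat.card S7 = 3 ^ 7 := by
  refine (card_adj ?_).trans (by rw [card_S6]; norm_num)
  rintro ⟨_, ⟨a, rfl⟩, i, ha⟩
  have h1 := ((bj_jj a).bk.mul (bk5.pow i.val)).y1 e1 T_e1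
  rw [← ha, bk6.y1 e1 T_e1, Y1_e1] at h1
  exact Fb_ne i h1

end Cfsg.Agent.SP.Mon.D3
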