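import Cfsg.Agent.H777.Th3.SylH
import Mathlib.LinearAlgebra.Dual.Lemmas
import Mathlib.Algebra.Field.ZMod
import Mathlib.FieldTheory.Finiteness
import Mathlib.Data.Set.Card
import Mathlib.Tactic

/-! # S5755, the Monster, box `Rk`: counting lemmas and the layers of a Sylow `3`-subgroup of `2Suz` (helper23) -/

set_option autoImplicit false

namespace Cfsg.Agent.SP.Mon.D3

open Cfsg.Agent.H777.Th3 (V5)

/-- counting along the fibres of a map -/
theorem fib {α β γ : Type*} [Finite β] [Finite γ] {s : Set α} {t : Set β} {d : Set γ} (f : α → β) (δ : α → α → γ)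
    (hf : ∀ a ∈ s, f a ∈ t) (hd : ∀ a ∈ s, ∀ b ∈ s, f a = f b → δ a b ∈ d)
    (hi : ∀ a b c, δ a b = δ a c → b = c) : s.ncard ≤ t.ncard * d.ncard := by
  classical
  rcases Set.eq_empty_or_nonempty s with rfl | ⟨a₀, ha₀⟩
  · simp
  have h3 : ∀ y : β, ∃ r, r ∈ s ∧ ((∃ a ∈ s, f a = y) → f r = y) := fun y => by
    by_cases h : ∃ a ∈ s, f a = y
    · obtain ⟨a, ha, e⟩ := h
      exact ⟨a, ha, fun _ => e⟩
    · exact ⟨a₀, ha₀, fun k => absurd k h⟩
  choose r hr using h3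
  rw [← Set.ncard_prod]
  refine Set.ncard_le_ncard_of_injOn (fun a => (f a, δ (r (f a)) a)) (fun a ha => ⟨hf a ha, ?_⟩) ?_ (Set.toFinite _)
  · exact hd _ (hr _).1 a ha ((hr _).2 ⟨a, ha, rfl⟩)
  · intro a _ b _ e
    have e1 : f a = f b := congrArg Prod.fst e
    have e2 : δ (r (f a)) a = δ (r (f b)) b := congrArg Prod.snd e
    rw [e1] at e2
    exact hi _ _ _ e2

/-- orthogonal sets -/
theorem orth {V : Type*} [AddCommGroup V] [Module (ZMod 3) V] [Finite V] (B : V →ₗ[ZMod 3] V →ₗ[ZMod 3] ZMod 3)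
    (hB : ∀ v, (∀ u, B u v = 0) → v = 0) {P Q : Set V} (h : ∀ p ∈ P, ∀ q ∈ Q, B p q = 0) :
    P.ncard * Q.ncard ≤ Nat.card V := by
  haveI : Fact (Nat.Prime 3) := ⟨Nat.prime_three⟩
  let P' : Submodule (ZMod 3) V := Submodule.span (ZMod 3) P
  haveI : Finite (V ⧸ P') := Finite.of_surjective _ P'.mkQ_surjective
  have h1 : ∀ q ∈ Q, P' ≤ LinearMap.ker (B.flip q) := fun q hq =>
    Submodule.span_le.2 fun p hp => h p hp q hq
  have h2 : Q.ncard ≤ Nat.card (Module.Dual (ZMod 3) (V ⧸ P')) := by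
    haveI : Finite (Module.Dual (ZMod 3) (V ⧸ P')) :=
      Finite.of_injective (fun f : Module.Dual (ZMod 3) (V ⧸ P') => (f : V ⧸ P' → ZMod 3)) DFunLike.coe_injective
    rw [← Nat.card_coe_set_eq]
    refine Nat.card_le_card_of_injective (fun q => P'.liftQ (B.flip q) (h1 q q.2)) fun q q' e => Subtype.ext ?_
    rw [← sub_eq_zero]
    refine hB _ fun u => ?_
    have e1 : B u q = B u q' := congrArg (fun f : Module.Dual (ZMod 3) (V ⧸ P') => f (P'.mkQ u)) e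
    rw [map_sub, e1, sub_self]
  have h3 : Nat.card (Module.Dual (ZMod 3) (V ⧸ P')) = Nat.card (V ⧸ P') :=
    Nat.card_congr (Module.finBasis (ZMod 3) (V ⧸ P')).toDualEquiv.toEquiv.symm
  have h4 : P.ncard ≤ Nat.card P' := by
    rw [← Nat.card_coe_set_eq]
    exact Nat.card_le_card_of_injective (fun p => ⟨p, Submodule.subset_span p.2⟩) fun p p' e =>
      Subtype.ext (congrArg (fun x : P' => (x : V)) e)
  rw [Submodule.card_eq_card_quotient_mul_card P', ← h3]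
  exact Nat.mul_le_mul h4 h2

/-- the action of the normal subgroup `3 ^ 5` from the first layer to the second -/
def Ph (y a : V5) : V5 :=
  (2 * (y.1 * a.2.2.2.2) + y.2.1 * a.2.2.2.1 + y.2.2.2.1 * a.2.1 + 2 * (y.2.2.2.2 * a.1),
   y.1 * a.2.2.2.1 + 2 * (y.2.1 * a.2.2.1) + 2 * (y.2.1 * a.2.2.2.2) + 2 * (y.2.2.1 * a.2.1) + y.2.2.2.1 * a.1 +
     2 * (y.2.2.2.2 * a.2.1),
   2 * (y.2.1 * a.2.1) + y.2.2.1 * a.2.2.2.2 + y.2.2.2.1 * a.2.2.2.1 + y.2.2.2.2 * a.2.2.1,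
   y.1 * a.2.1 + y.2.1 * a.1 + y.2.2.1 * a.2.2.2.1 + y.2.2.2.1 * a.2.2.1 + 2 * (y.2.2.2.1 * a.2.2.2.2) +
     2 * (y.2.2.2.2 * a.2.2.2.1),
   2 * (y.1 * a.1) + 2 * (y.2.1 * a.2.1) + y.2.2.1 * a.2.2.1 + 2 * (y.2.2.2.1 * a.2.2.2.1))

/-- the dot product -/
def dot (y a : V5) : ZMod 3 :=
  y.1 * a.1 + y.2.1 * a.2.1 + y.2.2.1 * a.2.2.1 + y.2.2.2.1 * a.2.2.2.1 + y.2.2.2.2 * a.2.2.2.2

/-- the first generator on the first layer -/
def Fa (y : V5) : V5 :=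
  (y.1 + 2 * y.2.2.1 + y.2.2.2.1, y.2.1 + 2 * y.2.2.1 + y.2.2.2.1, 2 * y.1 + 2 * y.2.1 + 2 * y.2.2.1 + 2 * y.2.2.2.1,
    2 * y.1 + 2 * y.2.1 + y.2.2.1, 2 * y.1 + y.2.1 + y.2.2.2.2)

/-- the second generator on the first layer -/
def Fb (y : V5) : V5 :=
  (y.1, y.2.1 + 2 * y.2.2.1 + y.2.2.2.1, 2 * y.2.1 + y.2.2.2.1, 2 * y.2.1 + 2 * y.2.2.1 + 2 * y.2.2.2.1,
    y.1 + y.2.2.2.2)

/-- the first generator on the second layer -/
def Ga (y : V5) : V5 :=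
  (y.1 + y.2.2.1 + y.2.2.2.1 + y.2.2.2.2, y.2.1 + y.2.2.1 + y.2.2.2.1 + 2 * y.2.2.2.2,
    y.1 + y.2.1 + 2 * y.2.2.1 + y.2.2.2.1, 2 * y.1 + 2 * y.2.1 + 2 * y.2.2.1, y.2.2.2.2)

/-- the second generator on the second layer -/
def Gb (y : V5) : V5 :=
  (y.1 + 2 * y.2.2.2.2, y.2.1 + y.2.2.1 + y.2.2.2.1, y.2.1 + 2 * y.2.2.2.1, 2 * y.2.1 + y.2.2.1 + 2 * y.2.2.2.1,
    y.2.2.2.2)

/-- the first layer -/
def f1 (p : ZMod 3 × ZMod 3) (y : V5) : V5 := Fb^[p.2.val] (Fa^[p.1.val] y)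

/-- the second layer -/
def f2 (p : ZMod 3 × ZMod 3) (y : V5) : V5 := Gb^[p.2.val] (Ga^[p.1.val] y)

theorem Ph_add_left (y y' a : V5) : Ph (y + y') a = Ph y a + Ph y' a := by
  refine Prod.ext ?_ (Prod.ext ?_ (Prod.ext ?_ (Prod.ext ?_ ?_))) <;>
    simp only [Ph, Prod.fst_add, Prod.snd_add] <;> ring

theorem Ph_add_right (y a a' : V5) : Ph y (a + a') = Ph y a + Ph y a' := by
  refine Prod.ext ?_ (Prod.ext ?_ (Prod.ext ?_ (Prod.ext ?_ ?_))) <;>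
    simp only [Ph, Prod.fst_add, Prod.snd_add] <;> ring

theorem Ph_zero_left (a : V5) : Ph 0 a = 0 := by
  have h := Ph_add_left 0 0 a
  rw [add_zero] at h
  exact left_eq_add.1 h

theorem Ph_zero_right (y : V5) : Ph y 0 = 0 := by
  have h := Ph_add_right y 0 0
  rw [add_zero] at h
  exact left_eq_add.1 h

theorem dot_add_left (y y' a : V5) : dot (y + y') a = dot y a + dot y' a := by
  simp only [dot, Prod.fst_add, Prod.snd_add]; ring

theorem dot_add_right (y a a' : V5) : dot y (a + a') = dot y a + dot y a' := by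
  simp only [dot, Prod.fst_add, Prod.snd_add]; ring

theorem dot_zero_right (y : V5) : dot y 0 = 0 := by
  have h := dot_add_right y 0 0
  rw [add_zero] at h
  exact left_eq_add.1 h

theorem Fa_add (y y' : V5) : Fa (y + y') = Fa y + Fa y' := by
  refine Prod.ext ?_ (Prod.ext ?_ (Prod.ext ?_ (Prod.ext ?_ ?_))) <;>
    simp only [Fa, Prod.fst_add, Prod.snd_add] <;> ring

theorem Fb_add (y y' : V5) : Fb (y + y') = Fb y + Fb y' := by
  refine Prod.ext ?_ (Prod.ext ?_ (Prod.ext ?_ (Prod.ext ?_ ?_))) <;>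
    simp only [Fb, Prod.fst_add, Prod.snd_add] <;> ring

theorem Ga_add (y y' : V5) : Ga (y + y') = Ga y + Ga y' := by
  refine Prod.ext ?_ (Prod.ext ?_ (Prod.ext ?_ (Prod.ext ?_ ?_))) <;>
    simp only [Ga, Prod.fst_add, Prod.snd_add] <;> ring

theorem Gb_add (y y' : V5) : Gb (y + y') = Gb y + Gb y' := by
  refine Prod.ext ?_ (Prod.ext ?_ (Prod.ext ?_ (Prod.ext ?_ ?_))) <;>
    simp only [Gb, Prod.fst_add, Prod.snd_add] <;> ring

theorem fix1_aux : ∀ p : ZMod 3 × ZMod 3, p = 0 ∨ (Finset.univ.filter fun y => f1 p y = y).card ≤ 9 := by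
  decide +kernel

theorem fix2_aux : ∀ p : ZMod 3 × ZMod 3, p = 0 ∨ (Finset.univ.filter fun y => f2 p y = y).card ≤ 9 := by
  decide +kernel

theorem fix3_aux : (Finset.univ.filter fun y => Ga y = y ∧ Gb y = y).card ≤ 3 := by decide +kernel

theorem fix4_aux : ∀ y : V5, (Ga y = y ∧ Gb y = y) ∨ (Finset.univ.filter fun p => f2 p y = y).card ≤ 3 := by
  decide +kernel

theorem ph_aux : ∀ y : V5, y = 0 ∨ (Finset.univ.filter fun a => Ph y a = 0).card ≤ 3 := by decide +kernel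

theorem Fa_ne : Fa (1, 0, 0, 0, 0) ≠ (1, 0, 0, 0, 0) := by decide +kernel

theorem Fb_ne : ∀ a : ZMod 3, Fb (1, 0, 0, 0, 0) ≠ Fa^[a.val] (1, 0, 0, 0, 0) := by decide +kernel

theorem ncard_le {α : Type*} [Fintype α] {s : Set α} {q : α → Prop} [DecidablePred q] {n : ℕ}
    (h : (Finset.univ.filter q).card ≤ n) (hs : ∀ a ∈ s, q a) : s.ncard ≤ n := by
  refine le_trans ?_ h
  rw [← Set.ncard_coe_finset]
  exact Set.ncard_le_ncard (fun a ha => by simpa using hs a ha) (Set.toFinite _)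

theorem card_V5 : Nat.card V5 = 243 := by
  simp only [Nat.card_prod, Nat.card_zmod]

theorem dot_nd : ∀ v : V5, dot (1, 0, 0, 0, 0) v = 0 → dot (0, 1, 0, 0, 0) v = 0 → dot (0, 0, 1, 0, 0) v = 0 →
    dot (0, 0, 0, 1, 0) v = 0 → dot (0, 0, 0, 0, 1) v = 0 → v = 0 := by decide +kernel

theorem orth5 {P Q : Set V5} (h : ∀ p ∈ P, ∀ q ∈ Q, dot p q = 0) : P.ncard * Q.ncard ≤ 243 := by
  rw [← card_V5]
  refine orth (LinearMap.mk₂ (ZMod 3) dot dot_add_left (fun c y a => ?_) dot_add_right (fun c y a => ?_))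
    (fun v hv => dot_nd v (hv _) (hv _) (hv _) (hv _) (hv _)) h
  · simp only [dot, Prod.smul_fst, Prod.smul_snd, smul_eq_mul]; ring
  · simp only [dot, Prod.smul_fst, Prod.smul_snd, smul_eq_mul]; ring

end Cfsg.Agent.SP.Mon.D3
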